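import Cfsg.Agent.Jordan.IsometryTypes
import Cfsg.Agent.LinAlg.Witt.Discr

/-!
# Invariant subspaces and realisation of unipotent isometry types in odd characteristic
-/

set_option autoImplicit false

open Module

namespace CfsgLib.Jordan.UnipotentFixed

variable {F : Type*} [Field F] {V : Type*} [AddCommGroup V] [Module F V] [FiniteDimensional F V]

/-- The chain type of an endomorphism is unique. -/
theorem hasChain_unique {N : Module.End F V} {S T : Multiset ℕ} (hS : Pieces.HasChain N S)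
    (hT : Pieces.HasChain N T) : S = T := by
  obtain ⟨ι, _, d, b, hd, hb, rfl⟩ := hS
  obtain ⟨κ, _, d', b', hd', hb', rfl⟩ := hT
  ext j
  rw [Multiset.count_map, Multiset.count_map]
  rcases j with - | j
  · rw [Multiset.filter_eq_nil.2 (fun k _ => (Nat.ne_of_lt (hd k))),
      Multiset.filter_eq_nil.2 (fun k _ => (Nat.ne_of_lt (hd' k)))]
    simp
  have h1 := hb.card_filter_eq j
  have h2 := hb'.card_filter_eq j
  simp only [eq_comm (a := j + 1)]
  exact Nat.cast_injective (R := ℤ) (h1.trans h2.symm)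

/-- Two invariant complements split the chain type. -/
theorem hasChain_split {N : Module.End F V} (hN : IsNilpotent N) {μ : Multiset ℕ}
    (hμ : Pieces.HasChain N μ) {W W' : Submodule F V} (hc : IsCompl W W')
    (hW : ∀ x ∈ W, N x ∈ W) (hW' : ∀ x ∈ W', N x ∈ W') :
    ∃ ν : Multiset ℕ, ν ≤ μ ∧ Pieces.HasChain (N.restrict hW) ν := by
  obtain ⟨ι, hι, d, b, hd, hb⟩ := exists_chainBasis (N.restrict hW) (Module.End.isNilpotent.restrict hW hN)
  obtain ⟨κ, hκ, d', b', hd', hb'⟩ :=
    exists_chainBasis (N.restrict hW') (Module.End.isNilpotent.restrict hW' hN)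
  have h1 : Pieces.HasChain (N.restrict hW) (Finset.univ.val.map d) := ⟨ι, hι, d, b, hd, hb, rfl⟩
  have h2 : Pieces.HasChain (N.restrict hW') (Finset.univ.val.map d') := ⟨κ, hκ, d', b', hd', hb', rfl⟩
  have h3 := (h1.prod h2).map (M := N) (Submodule.prodEquivOfIsCompl W W' hc) (fun x => by
    simp only [Submodule.coe_prodEquivOfIsCompl', LinearMap.prodMap_apply, map_add]
    rfl)
  exact ⟨_, by rw [← hasChain_unique h3 hμ]; exact Multiset.le_add_right _ _, h1⟩

variable {B : LinearMap.BilinForm F V} {g : Module.End F V}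

omit [FiniteDimensional F V] in
lemma isNilpotent_of_hasChain {N : Module.End F V} {S : Multiset ℕ} {m : ℕ} (hS : Pieces.HasChain N S)
    (hm : ∀ e ∈ S, e ≤ m) : N ^ m = 0 := by
  obtain ⟨ι, _, d, b, hd, hb, rfl⟩ := hS
  refine b.ext fun s => ?_
  rw [show s = ⟨s.1, s.2⟩ from rfl, hb.pow_apply m, dif_neg, LinearMap.zero_apply]
  have := hm (d s.1) (Multiset.mem_map_of_mem _ (Finset.mem_univ s.1))
  omega

lemma isoData_of_iso (hB : B.Nondegenerate) (hS : ∀ x y, B x y = B y x)
    (hg : ∀ x y, B (g x) (g y) = B x y) : ∃ g', IsometryParity.IsoData B g g' := by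
  have hinj : Function.Injective g := fun x y hxy => by
    refine sub_eq_zero.1 (hB.1 _ fun z => ?_)
    rw [← hg, map_sub, hxy, sub_self, map_zero, LinearMap.zero_apply]
  let e : V ≃ₗ[F] V := LinearEquiv.ofInjectiveEndo g hinj
  refine ⟨e.symm.toLinearMap, hB, fun x y h => by rw [hS]; exact h, hg, ?_, ?_⟩
  · refine LinearMap.ext fun x => ?_
    exact e.apply_symm_apply x
  · refine LinearMap.ext fun x => ?_
    exact e.symm_apply_apply x

/-- Even parts of a unipotent isometry occur an even number of times. -/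
theorem even_count (h2 : (2 : F) ≠ 0) (hB : B.Nondegenerate) (hS : ∀ x y, B x y = B y x)
    (hg : ∀ x y, B (g x) (g y) = B x y) {ν : Multiset ℕ} (hν : Pieces.HasChain (g - 1) ν) (e : ℕ)
    (he : Even e) : Even (ν.count e) := by
  obtain ⟨g', hD⟩ := isoData_of_iso hB hS hg
  obtain ⟨ι, hι, d, b, hd, hb, rfl⟩ := hν
  rw [Multiset.count_map]
  obtain ⟨r, rfl⟩ := he
  rcases r with - | r
  · rw [Multiset.filter_eq_nil.2 (fun k _ => (Nat.ne_of_lt (hd k)))]
    simp
  have := hD.even_count hb (2 * r + 1) (fun x hx => hD.zero_even hS h2 r hx)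
  simp only [eq_comm (a := r + 1 + (r + 1))]
  rw [show r + 1 + (r + 1) = 2 * r + 1 + 1 by omega]
  exact this

/-- A unipotent isometry with even parts only fixes a totally isotropic subspace of half the dimension. -/
theorem exists_half_isotropic (hB : B.Nondegenerate) (hS : ∀ x y, B x y = B y x)
    (hg : ∀ x y, B (g x) (g y) = B x y) {ν : Multiset ℕ} (hν : Pieces.HasChain (g - 1) ν)
    (he : ∀ e ∈ ν, Even e) :
    ∃ U : Submodule F V, 2 * finrank F U = finrank F V ∧ ∀ x ∈ U, ∀ y ∈ U, B x y = 0 := by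
  obtain ⟨g', hD⟩ := isoData_of_iso hB hS hg
  have hsum := IsometryTypes.finrank_of_hasChain hν
  obtain ⟨ι, hι, d, b, hd, hb, rfl⟩ := hν
  set N := g - 1 with hN
  set U : Submodule F V := ⨆ a : ℕ, (LinearMap.ker (N ^ (2 * a))).map (N ^ a) with hU
  have key : ∀ (a : ℕ) (x : V), (N ^ (2 * a)) x = 0 → ∀ (c : ℕ) (y : V), (N ^ (2 * c)) y = 0 → a ≤ c →
      B ((N ^ a) x) ((N ^ c) y) = 0 := by
    intro a x hx c y _ hac
    rw [hS]
    have := hD.vanish (a := c) (b := a) hx (by omega) 1 (Commute.one_left _) y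
    simpa using this
  have hiso : ∀ x ∈ U, ∀ y ∈ U, B x y = 0 := by
    intro x hx y hy
    induction hx using Submodule.iSup_induction' with
    | zero => simp
    | add u w _ _ hu hw => simp [hu, hw]
    | mem a u hu =>
      obtain ⟨u, hu', rfl⟩ := hu
      induction hy using Submodule.iSup_induction' with
      | zero => simp
      | add v w _ _ hv hw => simp [hv, hw]
      | mem c v hv =>
        obtain ⟨v, hv', rfl⟩ := hv
        rcases le_total a c with h | h
        · exact key a u hu' c v hv' h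
        · rw [hS]; exact key c v hv' a u hu' h
  refine ⟨U, le_antisymm ?_ ?_, hiso⟩
  · have h1 : U ≤ B.orthogonal U := fun x hx y hy => hiso y hy x hx
    have h2' := Submodule.finrank_mono h1
    rw [LinearMap.BilinForm.finrank_orthogonal hB] at h2'
    have := Submodule.finrank_le U
    omega
  · let f : ((k : ι) × Fin (d k / 2)) → V := fun s => b ⟨s.1, ⟨d s.1 / 2 + s.2, by omega⟩⟩
    have hf : LinearIndependent F f := b.linearIndependent.comp _ fun s s' h => by
      obtain ⟨k, i⟩ := s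
      obtain ⟨k', i'⟩ := s'
      simp only [Sigma.mk.injEq] at h
      obtain ⟨rfl, h⟩ := h
      simp only [heq_eq_eq, Fin.mk.injEq] at h
      simp only [Sigma.mk.injEq, heq_eq_eq, true_and]
      exact Fin.ext (by omega)
    have hfU : Submodule.span F (Set.range f) ≤ U := by
      rw [Submodule.span_le]
      rintro _ ⟨⟨k, i⟩, rfl⟩
      refine Submodule.mem_iSup_of_mem (d k / 2) ⟨b ⟨k, ⟨i, by omega⟩⟩, ?_, ?_⟩
      · obtain ⟨c, hc⟩ := he (d k) (Multiset.mem_map_of_mem _ (Finset.mem_univ k))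
        rw [SetLike.mem_coe, LinearMap.mem_ker, hb.pow_apply, dif_neg]
        show ¬ (i : ℕ) + 2 * (d k / 2) < d k
        omega
      · rw [hb.pow_apply, dif_pos (show (i : ℕ) + d k / 2 < d k by omega)]
        exact congrArg (fun j => b ⟨k, j⟩) (Fin.ext (Nat.add_comm _ _))
    have h3 := Submodule.finrank_mono hfU
    rw [finrank_span_eq_card hf, Fintype.card_sigma] at h3
    simp only [Fintype.card_fin] at h3
    rw [hsum]
    refine le_trans (le_of_eq ?_) (Nat.mul_le_mul_left 2 h3)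
    rw [Finset.mul_sum]
    refine Finset.sum_congr rfl fun k _ => ?_
    obtain ⟨c, hc⟩ := he (d k) (Multiset.mem_map_of_mem _ (Finset.mem_univ k))
    omega

/-- The restriction to an invariant non-degenerate subspace. -/
theorem exists_fixed_type (h2 : (2 : F) ≠ 0) (hB : B.Nondegenerate) (hS : ∀ x y, B x y = B y x)
    (hg : ∀ x y, B (g x) (g y) = B x y) {μ : Multiset ℕ} (hμ : Pieces.HasChain (g - 1) μ)
    {W : Submodule F V} (hW : ∀ x ∈ W, g x ∈ W) (hWn : ∀ x ∈ W, x ≠ 0 → ∃ y ∈ W, B x y ≠ 0) :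
    ∃ ν : Multiset ℕ, ν ≤ μ ∧ ν.sum = finrank F W ∧ (∀ e, Even e → Even (ν.count e)) ∧
      ((∀ e ∈ ν, Even e) → ∃ U : Submodule F V, U ≤ W ∧ 2 * finrank F U = finrank F W ∧
        ∀ x ∈ U, ∀ y ∈ U, B x y = 0) := by
  have hr : LinearMap.IsRefl B := fun x y h => by rw [hS]; exact h
  have hres : (B.restrict W).Nondegenerate := by
    have hs : ∀ x : W, (∀ y : W, B x y = 0) → x = 0 := by
      intro x hx
      by_contra h0
      obtain ⟨y, hy, hy0⟩ := hWn x x.2 (fun h => h0 (Subtype.ext h))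
      exact hy0 (hx ⟨y, hy⟩)
    exact ⟨hs, fun x hx => hs x fun y => (hS _ _).trans (hx y)⟩
  have hc : IsCompl W (B.orthogonal W) :=
    LinearMap.BilinForm.isCompl_orthogonal_of_restrict_nondegenerate hr hres
  have hinj : Function.Injective g := fun x y hxy => by
    refine sub_eq_zero.1 (hB.1 _ fun z => ?_)
    rw [← hg, map_sub, hxy, sub_self, map_zero, LinearMap.zero_apply]
  have hmap : W.map g = W := Submodule.eq_of_le_of_finrank_eq (Submodule.map_le_iff_le_comap.2 hW)
    (Submodule.equivMapOfInjective g hinj W).finrank_eq.symm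
  have hW' : ∀ x ∈ B.orthogonal W, g x ∈ B.orthogonal W := fun x hx w hw => by
    obtain ⟨w, hw', rfl⟩ := hmap.ge hw
    show B (g w) (g x) = 0
    rw [hg]
    exact hx w hw'
  have hNW : ∀ x ∈ W, (g - 1) x ∈ W := fun x hx => W.sub_mem (hW x hx) hx
  obtain ⟨s, hs⟩ : ∃ s, ∀ e ∈ μ, e ≤ s := ⟨μ.sum, fun e he => Multiset.le_sum_of_mem he⟩
  obtain ⟨ν, hνμ, hν⟩ := hasChain_split ⟨s, isNilpotent_of_hasChain hμ hs⟩ hμ hc hNW
    (fun x hx => Submodule.sub_mem _ (hW' x hx) hx)
  have hν' : Pieces.HasChain (g.restrict hW - 1) ν := by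
    rwa [show g.restrict hW - 1 = (g - 1).restrict hNW from LinearMap.ext fun x => rfl]
  have hgW : ∀ x y : W, B.restrict W (g.restrict hW x) (g.restrict hW y) = B.restrict W x y :=
    fun x y => hg x y
  refine ⟨ν, hνμ, (IsometryTypes.finrank_of_hasChain hν).symm,
    even_count h2 hres (fun x y => hS x y) hgW hν', fun he => ?_⟩
  obtain ⟨U, hU, hUi⟩ := exists_half_isotropic hres (fun x y => hS x y) hgW hν' he
  refine ⟨U.map W.subtype, Submodule.map_subtype_le W U, ?_, ?_⟩
  · rw [Submodule.finrank_map_subtype_eq, hU]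
  · rintro _ ⟨x, hx, rfl⟩ _ ⟨y, hy, rfl⟩
    exact hUi x hx y hy

/-! ### Realisation -/

section real

open CfsgLib.LinAlg.Witt

variable [Finite F]

omit [FiniteDimensional F V] in
lemma exists_form_of_orType (h2 : (2 : F) ≠ 0) {S : Multiset ℕ} (h : Pieces.OrType F S) :
    ∃ (B : LinearMap.BilinForm F (Fin S.sum → F)) (g : Module.End F (Fin S.sum → F)),
      (∀ x y, B x y = B y x) ∧ LinearMap.ker B = ⊥ ∧ B.Nondegenerate ∧
        (∀ x y, B (g x) (g y) = B x y) ∧ Pieces.HasChain (g - 1) S := by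
  have _ := h2
  obtain ⟨n, Q, g, hB, hg, hS⟩ := h
  have hn := IsometryTypes.finrank_of_hasChain hS
  rw [Module.finrank_fin_fun] at hn
  subst hn
  refine ⟨QuadraticMap.polarBilin Q, g, fun x y => QuadraticMap.polar_comm _ x y,
    (Submodule.eq_bot_iff _).2 fun x hx => hB.1 x fun y => LinearMap.congr_fun hx y, hB, fun x y => ?_, hS⟩
  simp [QuadraticMap.polar, ← map_add, hg]

variable {κ : Type*} [Fintype κ] [DecidableEq κ]

/-- Transport to a space of the same dimension and discriminant. -/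
theorem transport (h2 : (2 : F) ≠ 0) (T : LinearMap.BilinForm F (κ → F)) (hT : ∀ x y, T x y = T y x)
    (hTk : LinearMap.ker T = ⊥) {W : Type*} [AddCommGroup W] [Module F W] [FiniteDimensional F W]
    (B : LinearMap.BilinForm F W) (hB : ∀ x y, B x y = B y x) (hBk : LinearMap.ker B = ⊥)
    {ι : Type*} [Fintype ι] [DecidableEq ι] (b : Basis ι F W) (σ : κ ≃ ι)
    (hdet : IsSquare ((gram T (Pi.basisFun F κ)).det * (gram B b).det))
    (g : Module.End F W) (hg : ∀ x y, B (g x) (g y) = B x y) {S : Multiset ℕ}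
    (hS : Pieces.HasChain (g - 1) S) :
    ∃ u : Module.End F (κ → F), (∀ x y, T (u x) (u y) = T x y) ∧ Pieces.HasChain (u - 1) S := by
  obtain ⟨L, hL⟩ := exists_isometry_of_det h2 B T hB hT hBk hTk (b.reindex σ.symm) (Pi.basisFun F κ) (by
    rw [show gram B (b.reindex σ.symm) = (gram B b).submatrix σ σ from
      Matrix.ext fun i j => by simp [gram_apply], Matrix.det_submatrix_equiv_self, mul_comm]
    exact hdet)
  refine ⟨(L.toLinearMap ∘ₗ g) ∘ₗ L.symm.toLinearMap, fun x y => ?_, hS.map L fun x => by simp⟩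
  obtain ⟨x, rfl⟩ := L.surjective x
  obtain ⟨y, rfl⟩ := L.surjective y
  simp [hL, hg]

/-- A type with an odd part occurs in both classes of forms. -/
theorem exists_of_odd_part (h2 : (2 : F) ≠ 0) (T : LinearMap.BilinForm F (κ → F))
    (hT : ∀ x y, T x y = T y x) (hTk : LinearMap.ker T = ⊥) {μ : Multiset ℕ} (hpos : ∀ e ∈ μ, 0 < e)
    (hev : ∀ e, Even e → Even (μ.count e)) (hodd : ∃ a ∈ μ, Odd a) (hsum : μ.sum = Fintype.card κ) :
    ∃ u : Module.End F (κ → F), (∀ x y, T (u x) (u y) = T x y) ∧ Pieces.HasChain (u - 1) μ := by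
  obtain ⟨a, ha, hao⟩ := hodd
  obtain ⟨R, rfl⟩ := Multiset.exists_cons_of_mem ha
  obtain ⟨B₁, g₁, hS₁, hk₁, -, hg₁, hc₁⟩ := exists_form_of_orType h2 (Pieces.orType_odd (F := F) h2 a hao)
  obtain ⟨B₂, g₂, hS₂, hk₂, -, hg₂, hc₂⟩ := exists_form_of_orType h2
    (Pieces.orType_of_even (F := F) h2 R (fun j hj => hpos j (Multiset.mem_cons_of_mem hj)) (fun j hj _ => by
      have := hev j hj
      rwa [Multiset.count_cons_of_ne (fun h : j = a => Nat.not_even_iff_odd.2 hao (h ▸ hj))] at this))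
  let b := (Pi.basisFun F (Fin ({a} : Multiset ℕ).sum)).prod (Pi.basisFun F (Fin R.sum))
  let B : F → LinearMap.BilinForm F ((Fin ({a} : Multiset ℕ).sum → F) × (Fin R.sum → F)) := fun l =>
    (l • B₁).comp (LinearMap.fst _ _ _) (LinearMap.fst _ _ _) + B₂.comp (LinearMap.snd _ _ _) (LinearMap.snd _ _ _)
  have hdet : ∀ l, (gram (B l) b).det =
      l ^ ({a} : Multiset ℕ).sum * (gram B₁ (Pi.basisFun F _)).det * (gram B₂ (Pi.basisFun F _)).det := by
    intro l
    have e : gram (B l) b = Matrix.fromBlocks (l • gram B₁ (Pi.basisFun F _)) 0 0 (gram B₂ (Pi.basisFun F _)) := by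
      ext i j
      rcases i with i | i <;> rcases j with j | j <;> simp [gram_apply, B, b]
    rw [e, Matrix.det_fromBlocks_zero₂₁, Matrix.det_smul, Fintype.card_fin]
  have hd₁ := gram_det_ne_zero B₁ (Pi.basisFun F _) hk₁
  have hd₂ := gram_det_ne_zero B₂ (Pi.basisFun F _) hk₂
  set D := (gram T (Pi.basisFun F κ)).det *
    ((gram B₁ (Pi.basisFun F _)).det * (gram B₂ (Pi.basisFun F _)).det) with hD
  have hao' : Odd ({a} : Multiset ℕ).sum := by rwa [Multiset.sum_singleton]
  obtain ⟨l, hl0, hl⟩ : ∃ l : F, l ≠ 0 ∧ IsSquare (l ^ ({a} : Multiset ℕ).sum * D) := by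
    by_cases hsq : IsSquare D
    · exact ⟨1, one_ne_zero, by rwa [one_pow, one_mul]⟩
    · refine ⟨D, fun h => hsq (h ▸ IsSquare.zero), ?_⟩
      obtain ⟨r, hr⟩ := hao'
      exact ⟨D ^ (r + 1), by rw [hr]; ring⟩
  refine transport h2 T hT hTk (B l) (fun x y => ?_) ?_ b
    (Fintype.equivOfCardEq (by simp [← hsum])) ?_ (g₁.prodMap g₂) (fun x y => ?_) ?_
  · simp [B, hS₁ x.1 y.1, hS₂ x.2 y.2]
  · refine ker_eq_bot_of_gram_det_ne_zero _ b ?_
    rw [hdet]
    exact mul_ne_zero (mul_ne_zero (pow_ne_zero _ hl0) hd₁) hd₂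
  · rw [hdet]
    obtain ⟨r, hr⟩ := hl
    exact ⟨r, by rw [← hr, hD]; ring⟩
  · simp [B, hg₁, hg₂]
  · rw [show g₁.prodMap g₂ - 1 = (g₁ - 1).prodMap (g₂ - 1) from LinearMap.ext fun p => rfl]
    simpa using hc₁.prod hc₂

/-- A type with even parts only occurs in spaces of plus type. -/
theorem exists_of_even_parts (h2 : (2 : F) ≠ 0) (T : LinearMap.BilinForm F (κ → F))
    (hT : ∀ x y, T x y = T y x) (hTk : LinearMap.ker T = ⊥) {μ : Multiset ℕ} {M : ℕ}
    (hpos : ∀ e ∈ μ, 0 < e) (hev : ∀ e, Even e → Even (μ.count e)) (heven : ∀ e ∈ μ, Even e)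
    (hsum : μ.sum = Fintype.card κ) (hM : Fintype.card κ = 2 * M)
    (hplus : IsSquare ((-1 : F) ^ M * (gram T (Pi.basisFun F κ)).det)) :
    ∃ u : Module.End F (κ → F), (∀ x y, T (u x) (u y) = T x y) ∧ Pieces.HasChain (u - 1) μ := by
  obtain ⟨B, g, hS, hk, hB, hg, hc⟩ := exists_form_of_orType h2
    (Pieces.orType_of_even (F := F) h2 μ hpos (fun j hj _ => hev j hj))
  obtain ⟨U, hU, hUi⟩ := exists_half_isotropic hB hS hg hc heven
  have hn : finrank F (Fin μ.sum → F) = 2 * M := by rw [Module.finrank_fin_fun, hsum, hM]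
  have hBplus := (exists_half_isotropic_iff h2 B hS hk hn (Pi.basisFun F _)).1 ⟨U, by omega, hUi⟩
  refine transport h2 T hT hTk B hS hk (Pi.basisFun F _) (Fintype.equivOfCardEq (by simp [hsum])) ?_ g hg hc
  obtain ⟨r, hr⟩ := hplus
  obtain ⟨s, hs⟩ := hBplus
  refine ⟨r * s, ?_⟩
  have h1 : ((-1 : F) ^ M) * ((-1 : F) ^ M) = 1 := by rw [← mul_pow]; simp
  calc (gram T (Pi.basisFun F κ)).det * (gram B (Pi.basisFun F _)).det
      = ((-1 : F) ^ M * (gram T (Pi.basisFun F κ)).det) * ((-1 : F) ^ M * (gram B (Pi.basisFun F _)).det) := by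
        linear_combination -((gram T (Pi.basisFun F κ)).det * (gram B (Pi.basisFun F _)).det) * h1
    _ = r * s * (r * s) := by rw [hr, hs]; ring

end real

end CfsgLib.Jordan.UnipotentFixed
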